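import Mathlib
import Cfsg.Agent.Lib.Helper7.SpPerfect

set_option autoImplicit false
set_option linter.unusedSimpArgs false
set_option linter.unusedSectionVars false

namespace Cfsg.Agent.Lib.Helper7

open Matrix MulAction
open scoped Pointwise

variable {l : Type*} [Fintype l] [DecidableEq l] {F : Type*} [Field F]

theorem sp_smul_mk (g : symplecticGroup l F) (v : l ⊕ l → F) (hv : v ≠ 0) :
    ∃ h : g.1 *ᵥ v ≠ 0, g • Projectivization.mk F v hv = Projectivization.mk F (g.1 *ᵥ v) h :=
  ⟨(smul_ne_zero_iff_ne g).mpr hv, rfl⟩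

theorem block_move {B : Set (Projectivization F (l ⊕ l → F))} (hB : IsBlock (symplecticGroup l F) B)
    {u v w : l ⊕ l → F} (hu0 : u ≠ 0) (hv0 : v ≠ 0) (hw0 : w ≠ 0)
    (hu : Projectivization.mk F u hu0 ∈ B) (hv : Projectivization.mk F v hv0 ∈ B)
    (g : symplecticGroup l F) (hgu : g.1 *ᵥ u = u) (hgv : g.1 *ᵥ v = w) :
    Projectivization.mk F w hw0 ∈ B := by
  have h1 : g • Projectivization.mk F u hu0 = Projectivization.mk F u hu0 := by
    obtain ⟨h, he⟩ := sp_smul_mk g u hu0
    rw [he]; congr 1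
  have h2 : g • B = B := hB.smul_eq_of_mem hu (by rw [h1]; exact hu)
  have h3 : g • Projectivization.mk F v hv0 ∈ g • B := Set.smul_mem_smul_set hv
  rw [h2] at h3
  obtain ⟨h, he⟩ := sp_smul_mk g v hv0
  rw [he] at h3
  convert h3 using 2
  exact hgv.symm

theorem mk_smul_eq {v : l ⊕ l → F} (hv : v ≠ 0) {a : F} (ha : a ≠ 0) :
    Projectivization.mk F (a • v) (smul_ne_zero ha hv) = Projectivization.mk F v hv := by
  rw [Projectivization.mk_eq_mk_iff']
  exact ⟨a, rfl⟩

theorem blockA {B : Set (Projectivization F (l ⊕ l → F))} (hB : IsBlock (symplecticGroup l F) B)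
    {u v w : l ⊕ l → F} (hu0 : u ≠ 0) (hv0 : v ≠ 0) (hw0 : w ≠ 0)
    (hu : Projectivization.mk F u hu0 ∈ B) (hv : Projectivization.mk F v hv0 ∈ B)
    (huv : om l F u v ≠ 0) (huw : om l F u w ≠ 0) : Projectivization.mk F w hw0 ∈ B := by
  obtain ⟨t, -, e1, e2⟩ := TW_transitive_pair_aux (W := (⊤ : Submodule F (l ⊕ l → F))) (u := u)
    (v := (om l F u v)⁻¹ • v) (v' := (om l F u w)⁻¹ • w) trivial trivial trivial
    (by rw [map_smul, smul_eq_mul, inv_mul_cancel₀ huv])
    (by rw [map_smul, smul_eq_mul, inv_mul_cancel₀ huw])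
  rw [← mk_smul_eq hw0 (inv_ne_zero huw)]
  rw [← mk_smul_eq hv0 (inv_ne_zero huv)] at hv
  exact block_move hB hu0 _ _ hu hv t e1 e2

theorem exists_perp_ne {u v : l ⊕ l → F} (hu0 : u ≠ 0) (hv : ∀ a : F, v ≠ a • u) :
    ∃ z, om l F u z = 0 ∧ om l F v z ≠ 0 := by
  obtain ⟨f0, hf0⟩ := exists_om_ne_zero hu0
  have hv' : v - (om l F v ((om l F u f0)⁻¹ • f0)) • u ≠ 0 := fun h => hv _ (sub_eq_zero.1 h)
  obtain ⟨a0, ha0⟩ := exists_om_ne_zero hv'
  refine ⟨a0 - om l F u a0 • ((om l F u f0)⁻¹ • f0), ?_, ?_⟩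
  · simp only [map_sub, map_smul, smul_eq_mul]
    field_simp
    ring
  · intro h
    apply ha0
    simp only [map_sub, map_smul, smul_eq_mul, LinearMap.sub_apply, LinearMap.smul_apply] at h ⊢
    linear_combination h

theorem blockB {B : Set (Projectivization F (l ⊕ l → F))} (hB : IsBlock (symplecticGroup l F) B)
    {u v w : l ⊕ l → F} (hu0 : u ≠ 0) (hv0 : v ≠ 0) (hw0 : w ≠ 0)
    (hu : Projectivization.mk F u hu0 ∈ B) (hv : Projectivization.mk F v hv0 ∈ B)
    (huv : om l F u v = 0) (huw : om l F u w = 0) (hv' : ∀ a : F, v ≠ a • u)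
    (hw' : ∀ a : F, w ≠ a • u) : Projectivization.mk F w hw0 ∈ B := by
  have key : ∀ {a b : l ⊕ l → F} (ha0 : a ≠ 0) (hb0 : b ≠ 0), Projectivization.mk F a ha0 ∈ B →
      om l F u a = 0 → om l F u b = 0 → om l F a b ≠ 0 → Projectivization.mk F b hb0 ∈ B := by
    intro a b ha0 hb0 ha h1 h2 h
    refine block_move hB hu0 ha0 hb0 hu ha (tv (a - b) (om l F a b)⁻¹) ?_ (tv_move h)
    rw [tv_mulVec, map_sub, h1, h2]; simp
  by_cases h : om l F v w = 0
  · obtain ⟨a, ha1, ha2⟩ := exists_perp_ne hu0 hv'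
    obtain ⟨b, hb1, hb2⟩ := exists_perp_ne hu0 hw'
    obtain ⟨z, hz0, hz1, hz2⟩ : ∃ z, om l F u z = 0 ∧ om l F v z ≠ 0 ∧ om l F z w ≠ 0 := by
      have hb' : om l F b w ≠ 0 := by rw [om_swap]; exact neg_ne_zero.2 hb2
      by_cases h1 : om l F a w = 0
      · by_cases h2 : om l F v b = 0
        · refine ⟨a + b, ?_, ?_, ?_⟩
          · rw [map_add, ha1, hb1, add_zero]
          · rw [map_add, h2, add_zero]; exact ha2
          · rw [map_add, LinearMap.add_apply, h1, zero_add]; exact hb'
        · exact ⟨b, hb1, h2, hb'⟩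
      · exact ⟨a, ha1, ha2, h1⟩
    have hzne : z ≠ 0 := by rintro rfl; simp at hz1
    exact key hzne hw0 (key hv0 hzne hv huv hz0 hz1) hz0 huw hz2
  · exact key hv0 hw0 hv huv huw h

theorem sp_isPretransitive : IsPretransitive (symplecticGroup l F) (Projectivization F (l ⊕ l → F)) := by
  constructor
  intro p p'
  induction p using Projectivization.ind with | _ u hu => ?_
  induction p' using Projectivization.ind with | _ v hv => ?_
  obtain ⟨g, hg⟩ := sp_transitive hu hv
  refine ⟨g, ?_⟩
  obtain ⟨h, he⟩ := sp_smul_mk g u hu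
  rw [he]; congr 1

theorem ne_smul_of_mk_ne {u v : l ⊕ l → F} (hu0 : u ≠ 0) (hv0 : v ≠ 0)
    (h : Projectivization.mk F u hu0 ≠ Projectivization.mk F v hv0) : ∀ a : F, v ≠ a • u := by
  intro a hva
  apply h
  rw [eq_comm, Projectivization.mk_eq_mk_iff']
  exact ⟨a, hva.symm⟩

theorem sp_isPreprimitive : IsPreprimitive (symplecticGroup l F) (Projectivization F (l ⊕ l → F)) := by
  have := sp_isPretransitive (l := l) (F := F)
  constructor
  intro B hB
  rw [IsTrivialBlock, or_iff_not_imp_left]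
  intro hns
  rw [Set.not_subsingleton_iff] at hns
  obtain ⟨p, hp, p', hp', hne⟩ := hns
  induction p using Projectivization.ind with | _ u hu0 => ?_
  induction p' using Projectivization.ind with | _ v hv0 => ?_
  rw [Set.eq_univ_iff_forall]
  intro r
  induction r using Projectivization.ind with | _ w hw0 => ?_
  have hvu := ne_smul_of_mk_ne hu0 hv0 hne
  by_cases huv : om l F u v = 0
  · by_cases huw : om l F u w = 0
    · by_cases hw : ∃ a : F, w = a • u
      · obtain ⟨a, rfl⟩ := hw
        have ha : a ≠ 0 := by rintro rfl; simp at hw0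
        rw [mk_smul_eq hu0 ha]; exact hp
      · push Not at hw
        exact blockB hB hu0 hv0 hw0 hp hp' huv huw hvu hw
    · have hz0 : v - (om l F v w / om l F u w) • u ≠ 0 := fun h => hvu _ (sub_eq_zero.1 h)
      have hzu : om l F u (v - (om l F v w / om l F u w) • u) = 0 := by
        simp [huv, om_self]
      have hzw : om l F (v - (om l F v w / om l F u w) • u) w = 0 := by
        simp only [map_sub, map_smul, LinearMap.sub_apply, LinearMap.smul_apply, smul_eq_mul]
        field_simp
        ring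
      have hz : Projectivization.mk F _ hz0 ∈ B := by
        refine blockB hB hu0 hv0 hz0 hp hp' huv hzu hvu ?_
        intro a ha
        apply hvu (a + om l F v w / om l F u w)
        rw [add_smul, ← ha]; abel
      refine blockB hB hz0 hu0 hw0 hz hp (by rw [om_swap, hzu, neg_zero]) hzw ?_ ?_
      · intro a ha
        apply huw
        rw [ha, map_smul, LinearMap.smul_apply, hzw, smul_zero]
      · intro a ha
        apply huw
        rw [ha, map_smul, hzu, smul_zero]
  · by_cases huw : om l F u w = 0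
    · obtain ⟨a, ha⟩ := exists_om_ne_zero hu0
      obtain ⟨b, hb⟩ := exists_om_ne_zero hw0
      obtain ⟨z, hz1, hz2⟩ : ∃ z, om l F u z ≠ 0 ∧ om l F w z ≠ 0 := by
        by_cases h1 : om l F w a = 0
        · by_cases h2 : om l F u b = 0
          · exact ⟨a + b, by rw [map_add, h2, add_zero]; exact ha, by rw [map_add, h1, zero_add]; exact hb⟩
          · exact ⟨b, h2, hb⟩
        · exact ⟨a, ha, h1⟩
      have hzne : z ≠ 0 := by rintro rfl; simp at hz1
      have hz : Projectivization.mk F z hzne ∈ B := blockA hB hu0 hv0 hzne hp hp' huv hz1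
      exact blockA hB hzne hu0 hw0 hz hp (by rw [om_swap]; exact neg_ne_zero.2 hz1)
        (by rw [om_swap]; exact neg_ne_zero.2 hz2)
    · exact blockA hB hu0 hv0 hw0 hp hp' huv huw

/-- The root subgroup homomorphism. -/
noncomputable def tvHom (u : l ⊕ l → F) : Multiplicative F →* symplecticGroup l F where
  toFun c := tv u (Multiplicative.toAdd c)
  map_one' := tv_zero u
  map_mul' _ _ := (tv_mul u _ _).symm

theorem mem_range_tvHom {u : l ⊕ l → F} {g : symplecticGroup l F} :
    g ∈ (tvHom u).range ↔ ∃ c : F, tv u c = g := by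
  constructor
  · rintro ⟨c, rfl⟩; exact ⟨_, rfl⟩
  · rintro ⟨c, rfl⟩; exact ⟨Multiplicative.ofAdd c, rfl⟩

theorem range_tvHom_smul (u : l ⊕ l → F) {a : F} (ha : a ≠ 0) :
    (tvHom (a • u)).range = (tvHom u).range := by
  ext g
  rw [mem_range_tvHom, mem_range_tvHom]
  constructor
  · rintro ⟨c, rfl⟩
    exact ⟨_, (tv_smul u a c).symm⟩
  · rintro ⟨c, rfl⟩
    refine ⟨c / a ^ 2, ?_⟩
    rw [tv_smul]
    congr 1
    field_simp

theorem range_tvHom_rep {u : l ⊕ l → F} (hu : u ≠ 0) :
    (tvHom (Projectivization.mk F u hu).rep).range = (tvHom u).range := by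
  obtain ⟨a, ha⟩ := Projectivization.exists_smul_eq_mk_rep F u hu
  rw [← ha, Units.smul_def, range_tvHom_smul u a.ne_zero]

/-- The Iwasawa structure on the symplectic group. -/
noncomputable def spIwasawa : IwasawaStructure (symplecticGroup l F) (Projectivization F (l ⊕ l → F)) where
  T p := (tvHom p.rep).range
  is_comm p := ⟨⟨by
    rintro ⟨_, ⟨a, rfl⟩⟩ ⟨_, ⟨b, rfl⟩⟩
    apply Subtype.ext
    show tvHom p.rep a * tvHom p.rep b = tvHom p.rep b * tvHom p.rep a
    rw [← map_mul, ← map_mul, mul_comm]⟩⟩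
  is_conj g p := by
    induction p using Projectivization.ind with | _ u hu => ?_
    obtain ⟨h, he⟩ := sp_smul_mk g u hu
    rw [he, range_tvHom_rep, range_tvHom_rep]
    ext x
    rw [Subgroup.mem_pointwise_smul_iff_inv_smul_mem, mem_range_tvHom, mem_range_tvHom]
    simp only [MulAut.smul_def, MulAut.inv_apply, MulAut.conj_symm_apply]
    constructor
    · rintro ⟨c, rfl⟩
      refine ⟨c, ?_⟩
      rw [← tv_conj]; group
    · rintro ⟨c, hc⟩
      refine ⟨c, ?_⟩
      rw [← tv_conj, hc]; group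
  is_generator := by
    rw [eq_top_iff, ← TW_top, TW, Subgroup.closure_le]
    rintro _ ⟨u, -, c, rfl⟩
    by_cases hu : u = 0
    · subst hu
      rw [tv_zero_vec]; exact Subgroup.one_mem _
    · apply Subgroup.mem_iSup_of_mem (Projectivization.mk F u hu)
      rw [range_tvHom_rep]
      exact mem_range_tvHom.2 ⟨c, rfl⟩

theorem sp_mem_center_of_fix (g : symplecticGroup l F)
    (hg : ∀ p : Projectivization F (l ⊕ l → F), g • p = p) :
    g ∈ Subgroup.center (symplecticGroup l F) := by
  obtain ⟨a, ha⟩ := (Matrix.toLin' g.1).exists_eq_smul_id_of_forall_notLinearIndependent (fun v => by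
    by_cases hv : v = 0
    · simp [hv, linearIndependent_fin2]
    · obtain ⟨h, he⟩ := sp_smul_mk g v hv
      have h1 := hg (Projectivization.mk F v hv)
      rw [he, Projectivization.mk_eq_mk_iff'] at h1
      obtain ⟨a, ha⟩ := h1
      rw [LinearIndependent.pair_iff' hv]
      push Not
      exact ⟨a, by rw [ha, Matrix.toLin'_apply]⟩)
  have key : ∀ y, g.1 *ᵥ y = a • y := fun y => by
    have := congrArg (fun f : (l ⊕ l → F) →ₗ[F] (l ⊕ l → F) => f y) ha
    simpa using this
  rw [Subgroup.mem_center_iff]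
  intro h
  apply sp_ext
  intro x
  rw [sp_mul_mulVec, sp_mul_mulVec, key, key, Matrix.mulVec_smul]

theorem psp_isSimpleGroup [Nonempty l] (hperf : commutator (symplecticGroup l F) = ⊤) :
    IsSimpleGroup (symplecticGroup l F ⧸ Subgroup.center (symplecticGroup l F)) := by
  have hprim := sp_isPreprimitive (l := l) (F := F)
  have hnt : Nontrivial (symplecticGroup l F ⧸ Subgroup.center (symplecticGroup l F)) := by
    by_contra hcon
    rw [not_nontrivial_iff_subsingleton, QuotientGroup.subsingleton_iff,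
      ← commutator_eq_bot_iff_center_eq_top, hperf] at hcon
    obtain ⟨i⟩ := ‹Nonempty l›
    have h1 : tv (eL F i) 1 ∈ (⊤ : Subgroup (symplecticGroup l F)) := trivial
    rw [hcon, Subgroup.mem_bot] at h1
    have h2 := congrArg (fun g : symplecticGroup l F => (g.1 *ᵥ eR F i) (.inl i)) h1
    simp only [tv_mulVec, sp_one_mulVec, om_eL] at h2
    simp [eR, eL] at h2
  refine ⟨fun H hH => ?_⟩
  have hN : (H.comap (QuotientGroup.mk' (Subgroup.center (symplecticGroup l F)))).Normal :=
    hH.comap _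
  by_cases hfix : fixedPoints (H.comap (QuotientGroup.mk' (Subgroup.center (symplecticGroup l F))))
      (Projectivization F (l ⊕ l → F)) = Set.univ
  · left
    rw [eq_bot_iff]
    intro x hx
    obtain ⟨g, rfl⟩ := QuotientGroup.mk'_surjective _ x
    rw [Subgroup.mem_bot]
    apply (QuotientGroup.eq_one_iff g).2
    apply sp_mem_center_of_fix
    intro p
    have : p ∈ fixedPoints (H.comap (QuotientGroup.mk' (Subgroup.center (symplecticGroup l F))))
      (Projectivization F (l ⊕ l → F)) := by rw [hfix]; trivial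
    exact this ⟨g, hx⟩
  · right
    have h1 := spIwasawa.commutator_le _ hfix
    rw [hperf, top_le_iff] at h1
    rw [eq_top_iff]
    intro x _
    obtain ⟨g, rfl⟩ := QuotientGroup.mk'_surjective _ x
    have : g ∈ H.comap (QuotientGroup.mk' (Subgroup.center (symplecticGroup l F))) := by
      rw [h1]; trivial
    exact this

end Cfsg.Agent.Lib.Helper7
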