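import Mathlib

set_option autoImplicit false

namespace Cfsg.Agent.Lib.Helper7

open Matrix

variable {F : Type*} [Field F]

/-- The determinant of two plane vectors. -/
def cross (u v : Fin 2 → F) : F := u 0 * v 1 - u 1 * v 0

theorem mk_eq_mk_iff_cross (u v : Fin 2 → F) (hu : u ≠ 0) (hv : v ≠ 0) :
    Projectivization.mk F u hu = Projectivization.mk F v hv ↔ cross u v = 0 := by
  rw [Projectivization.mk_eq_mk_iff']
  constructor
  · rintro ⟨a, rfl⟩
    simp [cross]; ring
  · intro h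
    unfold cross at h
    by_cases h0 : v 0 = 0
    · have h1 : v 1 ≠ 0 := by
        intro h1; apply hv; funext i; fin_cases i <;> simp [h0, h1]
      have hu0 : u 0 = 0 := by
        rw [h0, mul_zero, sub_zero] at h
        exact (mul_eq_zero.1 h).resolve_right h1
      refine ⟨u 1 / v 1, ?_⟩
      funext i; fin_cases i
      · simp [h0, hu0]
      · simp [h1]
    · refine ⟨u 0 / v 0, ?_⟩
      funext i; fin_cases i
      · simp [h0]
      · simp only [Pi.smul_apply, smul_eq_mul]
        show u 0 / v 0 * v 1 = u 1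
        field_simp
        linear_combination h

theorem e0_ne : (![1, 0] : Fin 2 → F) ≠ 0 := fun h => one_ne_zero (congrFun h 0)
theorem e1_ne : (![0, 1] : Fin 2 → F) ≠ 0 := fun h => one_ne_zero (congrFun h 1)
theorem e2_ne : (![1, 1] : Fin 2 → F) ≠ 0 := fun h => one_ne_zero (congrFun h 0)

/-- The three standard points. -/
def pt0 (F : Type*) [Field F] : Projectivization F (Fin 2 → F) := Projectivization.mk F ![1, 0] e0_ne
def pt1 (F : Type*) [Field F] : Projectivization F (Fin 2 → F) := Projectivization.mk F ![0, 1] e1_ne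
def pt2 (F : Type*) [Field F] : Projectivization F (Fin 2 → F) := Projectivization.mk F ![1, 1] e2_ne

theorem gl_smul_mk (g : GeneralLinearGroup (Fin 2) F) (v : Fin 2 → F) (hv : v ≠ 0) :
    ∃ h : g.1 *ᵥ v ≠ 0, g • Projectivization.mk F v hv = Projectivization.mk F (g.1 *ᵥ v) h :=
  ⟨(smul_ne_zero_iff_ne g).mpr hv, rfl⟩

theorem exists_frame (a b c : Projectivization F (Fin 2 → F)) (hab : a ≠ b) (hac : a ≠ c)
    (hbc : b ≠ c) : ∃ g : GeneralLinearGroup (Fin 2) F, g • pt0 F = a ∧ g • pt1 F = b ∧ g • pt2 F = c := by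
  induction a using Projectivization.ind with | _ u hu => ?_
  induction b using Projectivization.ind with | _ v hv => ?_
  induction c using Projectivization.ind with | _ w hw => ?_
  have h1 : cross u v ≠ 0 := fun h => hab ((mk_eq_mk_iff_cross u v hu hv).2 h)
  have h2 : cross u w ≠ 0 := fun h => hac ((mk_eq_mk_iff_cross u w hu hw).2 h)
  have h3 : cross v w ≠ 0 := fun h => hbc ((mk_eq_mk_iff_cross v w hv hw).2 h)
  have hdet : (!![cross w v * u 0, cross u w * v 0; cross w v * u 1, cross u w * v 1]).det ≠ 0 := by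
    rw [det_fin_two_of]
    have : cross w v * u 0 * (cross u w * v 1) - cross u w * v 0 * (cross w v * u 1)
        = -(cross v w * cross u w * cross u v) := by
      unfold cross; ring
    rw [this]
    exact neg_ne_zero.2 (mul_ne_zero (mul_ne_zero h3 h2) h1)
  refine ⟨GeneralLinearGroup.mkOfDetNeZero _ hdet, ?_, ?_, ?_⟩
  · obtain ⟨h, he⟩ := gl_smul_mk (GeneralLinearGroup.mkOfDetNeZero _ hdet) ![1, 0] e0_ne
    rw [pt0, he, mk_eq_mk_iff_cross]
    simp [GeneralLinearGroup.mkOfDetNeZero, cross, Matrix.mulVec, dotProduct, Fin.sum_univ_two]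
    ring
  · obtain ⟨h, he⟩ := gl_smul_mk (GeneralLinearGroup.mkOfDetNeZero _ hdet) ![0, 1] e1_ne
    rw [pt1, he, mk_eq_mk_iff_cross]
    simp [GeneralLinearGroup.mkOfDetNeZero, cross, Matrix.mulVec, dotProduct, Fin.sum_univ_two]
    ring
  · obtain ⟨h, he⟩ := gl_smul_mk (GeneralLinearGroup.mkOfDetNeZero _ hdet) ![1, 1] e2_ne
    rw [pt2, he, mk_eq_mk_iff_cross]
    simp [GeneralLinearGroup.mkOfDetNeZero, cross, Matrix.mulVec, dotProduct, Fin.sum_univ_two]
    ring

theorem fix_pt0 {g : GeneralLinearGroup (Fin 2) F} (h : g • pt0 F = pt0 F) : g.1 1 0 = 0 := by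
  obtain ⟨h', he⟩ := gl_smul_mk g ![1, 0] e0_ne
  rw [pt0, he, mk_eq_mk_iff_cross] at h
  simpa [cross, Matrix.mulVec, dotProduct, Fin.sum_univ_two] using h

theorem fix_pt1 {g : GeneralLinearGroup (Fin 2) F} (h : g • pt1 F = pt1 F) : g.1 0 1 = 0 := by
  obtain ⟨h', he⟩ := gl_smul_mk g ![0, 1] e1_ne
  rw [pt1, he, mk_eq_mk_iff_cross] at h
  simpa [cross, Matrix.mulVec, dotProduct, Fin.sum_univ_two] using h

theorem pt2_map {g : GeneralLinearGroup (Fin 2) F} (h0 : g.1 1 0 = 0) (h1 : g.1 0 1 = 0)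
    (w : Fin 2 → F) (hw : w ≠ 0) (h : g • pt2 F = Projectivization.mk F w hw) :
    g.1 0 0 * w 1 = g.1 1 1 * w 0 := by
  obtain ⟨h', he⟩ := gl_smul_mk g ![1, 1] e2_ne
  rw [pt2, he, mk_eq_mk_iff_cross] at h
  simp [cross, Matrix.mulVec, dotProduct, Fin.sum_univ_two, h0, h1] at h
  linear_combination h

end Cfsg.Agent.Lib.Helper7
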