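import Mathlib
import Cfsg.Agent.Lib.Helper7.PSL2SubM

set_option autoImplicit false
set_option linter.unusedSimpArgs false
set_option linter.unusedSectionVars false
set_option linter.unusedVariables false

/-! The copy of `SL₂(K)` inside a subgroup of subfield type. -/

namespace Cfsg.Agent.Lib.Helper7.PMax

open Matrix MatrixGroups Subgroup Cfsg.Agent.Lib.Helper46 Cfsg.Agent.Lib.Helper18.SL2
open Cfsg.Agent.Lib.Helper7

variable {F : Type*} [Field F]

theorem toGL_inj {s t : SpecialLinearGroup (Fin 2) F}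
    (h : SpecialLinearGroup.toGL s = SpecialLinearGroup.toGL t) : s = t := by
  apply Subtype.ext
  have := congrArg (fun g : GL (Fin 2) F => (g : Matrix (Fin 2) (Fin 2) F)) h
  simpa using this

/-- conjugation by an element of `GL₂`, as a homomorphism -/
noncomputable def conjGLHom (D : GL (Fin 2) F) :
    SpecialLinearGroup (Fin 2) F →* SpecialLinearGroup (Fin 2) F where
  toFun := conjGL D
  map_one' := by
    apply toGL_inj
    rw [toGL_conjGL, map_one]
    group
  map_mul' s t := by
    apply toGL_inj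
    rw [map_mul, toGL_conjGL, toGL_conjGL, toGL_conjGL, map_mul]
    group

theorem conjGLHom_apply (D : GL (Fin 2) F) (s : SpecialLinearGroup (Fin 2) F) :
    conjGLHom D s = conjGL D s := rfl

theorem conjGLHom_injective (D : GL (Fin 2) F) : Function.Injective (conjGLHom D) := by
  intro s t h
  apply toGL_inj
  have := congrArg SpecialLinearGroup.toGL h
  rw [conjGLHom_apply, conjGLHom_apply, toGL_conjGL, toGL_conjGL] at this
  simpa using this

/-- `SL₂(K) → SL₂(F)`, followed by conjugation by `D⁻¹` -/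
noncomputable def embK (K : Subfield F) (D : GL (Fin 2) F) :
    SpecialLinearGroup (Fin 2) K →* SpecialLinearGroup (Fin 2) F :=
  (conjGLHom D).comp (SpecialLinearGroup.map K.subtype)

theorem map_subtype_injective (K : Subfield F) :
    Function.Injective (SpecialLinearGroup.map (n := Fin 2) K.subtype) := by
  intro s t h
  ext i j
  have := congrArg (fun g : SpecialLinearGroup (Fin 2) F => g.1 i j) h
  exact this

theorem embK_injective (K : Subfield F) (D : GL (Fin 2) F) : Function.Injective (embK K D) :=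
  (conjGLHom_injective D).comp (map_subtype_injective K)

theorem Phi_embK (K : Subfield F) (D : GL (Fin 2) F) (s : SpecialLinearGroup (Fin 2) K) :
    Phi D (embK K D s) = ProjGenLinGroup.map (n := Fin 2) K.subtype
      (ProjectiveSpecialLinearGroup.toPGL (QuotientGroup.mk s)) := by
  show Phi D (conjGL D (SpecialLinearGroup.map K.subtype s)) = _
  rw [Phi_conjGL]
  show _ = ProjGenLinGroup.map (n := Fin 2) K.subtype
    (ProjGenLinGroup.mk (SpecialLinearGroup.toGL s))
  rw [ProjGenLinGroup.map_mk]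
  congr 1
  ext i j
  rfl

theorem Phi_eq_iff (D : GL (Fin 2) F) {g h : SpecialLinearGroup (Fin 2) F} :
    Phi D g = Phi D h ↔ g⁻¹ * h ∈ center (SpecialLinearGroup (Fin 2) F) := by
  rw [← PhiBar_mk, ← PhiBar_mk, (PhiBar_injective D).eq_iff]
  exact QuotientGroup.eq

theorem InSub.embK_mem {K : Subfield F} {D : GL (Fin 2) F}
    {G : Subgroup (SpecialLinearGroup (Fin 2) F)} (h : InSub K D G)
    (hZ : center (SpecialLinearGroup (Fin 2) F) ≤ G) (s : SpecialLinearGroup (Fin 2) K) :
    embK K D s ∈ G := by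
  obtain ⟨g, hg, hgs⟩ := h.2 ⟨_, ⟨QuotientGroup.mk s, rfl⟩, rfl⟩
  rw [← Phi_embK, Phi_eq_iff] at hgs
  have := G.mul_mem hg (hZ hgs)
  rwa [mul_inv_cancel_left] at this

/-- the alternative: `G` is the copy of `SL₂(K)`, or it induces all of `PGL₂(K)` -/
theorem InSub.range_or [Finite F] {K : Subfield F} {D : GL (Fin 2) F}
    {G : Subgroup (SpecialLinearGroup (Fin 2) F)} (h : InSub K D G)
    (hZ : center (SpecialLinearGroup (Fin 2) F) ≤ G) :
    (∀ g ∈ G, ∃ s, ∃ z ∈ center (SpecialLinearGroup (Fin 2) F), g = embK K D s * z) ∨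
    (∀ y : ProjGenLinGroup (Fin 2) K, ∃ g ∈ G,
      Phi D g = ProjGenLinGroup.map (n := Fin 2) K.subtype y) := by
  set H' : Subgroup (ProjGenLinGroup (Fin 2) K) :=
    (G.map (Phi D)).comap (ProjGenLinGroup.map (n := Fin 2) K.subtype) with hH'
  have hle : (ProjectiveSpecialLinearGroup.toPGL (n := Fin 2) (R := K)).range ≤ H' := by
    rintro _ ⟨s, rfl⟩
    exact h.2 ⟨_, ⟨s, rfl⟩, rfl⟩
  rcases eq_range_or_eq_top H' hle with h1 | h1
  · left
    intro g hg
    obtain ⟨y, hy⟩ := h.1 ⟨g, hg, rfl⟩
    have hyH : y ∈ H' := by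
      show ProjGenLinGroup.map (n := Fin 2) K.subtype y ∈ G.map (Phi D)
      rw [hy]; exact ⟨g, hg, rfl⟩
    rw [h1] at hyH
    obtain ⟨s, rfl⟩ := hyH
    induction s using QuotientGroup.induction_on with | H s =>
    rw [← Phi_embK, Phi_eq_iff] at hy
    exact ⟨s, _, hy, by group⟩
  · right
    intro y
    have hy : y ∈ H' := by rw [h1]; trivial
    obtain ⟨g, hg, hgy⟩ := hy
    exact ⟨g, hg, hgy⟩

end Cfsg.Agent.Lib.Helper7.PMax
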