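import Mathlib
import Cfsg.Agent.Lib.Helper7.SL2Full

set_option autoImplicit false
set_option linter.unusedSimpArgs false
set_option linter.unusedSectionVars false
set_option linter.unusedVariables false

/-! Dickson's theorem for subgroups of `SL₂(q)` containing the centre and a transvection. -/

namespace Cfsg.Agent.Lib.Helper7

open Matrix Subgroup Cfsg.Agent.Lib.Helper46 Cfsg.Agent.Lib.Helper18.SL2

variable {F : Type*} [Field F] [Fintype F]

theorem dickson_unip (p : ℕ) [Fact p.Prime] [CharP F p]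
    (G : Subgroup (SpecialLinearGroup (Fin 2) F))
    (hZ : center (SpecialLinearGroup (Fin 2) F) ≤ G) {u : SpecialLinearGroup (Fin 2) F}
    (huG : u ∈ G) (huc : u ∉ center (SpecialLinearGroup (Fin 2) F)) (hut : tr u = 2) :
    (∃ g : SpecialLinearGroup (Fin 2) F, ∀ x ∈ G, (g * x * g⁻¹).1 1 0 = 0) ∨
    Tor G ∨
    (Nat.card G = zc F * 60 ∧ ∀ y ∈ G, y ∉ center (SpecialLinearGroup (Fin 2) F) →
      CD G 2 2 y ∨ CD G 3 2 y ∨ CD G 5 2 y) ∨
    (∃ (K : Subfield F) (D : GL (Fin 2) F), InSub K D G) := by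
  by_cases hfix : ∀ h ∈ G, tr (u * (h * u * h⁻¹)) = 2
  · left
    obtain ⟨g, a, hg⟩ := exists_conj_uu hut
    have ha : a ≠ 0 := by
      rintro rfl
      rw [uu_zero] at hg
      apply huc
      have : u = 1 := by
        have := congrArg (fun w => g⁻¹ * w * g) hg
        simpa [mul_assoc] using this
      rw [this]; exact one_mem _
    refine ⟨g, fun w hw => ?_⟩
    have h1 := tr_uu_conj a (g * w * g⁻¹)
    have h2 : uu a * (g * w * g⁻¹ * uu a * (g * w * g⁻¹)⁻¹) = g * (u * (w * u * w⁻¹)) * g⁻¹ := by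
      rw [← hg]; group
    rw [h2, tr_conj, hfix w hw] at h1
    have h3 : (a * (g * w * g⁻¹).1 1 0) ^ 2 = 0 := by linear_combination h1
    have h4 := pow_eq_zero_iff (two_ne_zero) |>.1 h3
    exact (mul_eq_zero.1 h4).resolve_left ha
  push Not at hfix
  obtain ⟨h, hhG, hne⟩ := hfix
  obtain ⟨g, a, b, hga, hgb, hab⟩ := exists_conj_uu_ll hut (by rw [tr_conj]; exact hut) hne
  have hab0 : a * b ≠ 0 := by
    rw [hab]; exact sub_ne_zero.2 hne
  have ha : a ≠ 0 := left_ne_zero_of_mul hab0
  have hb : b ≠ 0 := right_ne_zero_of_mul hab0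
  set G' := G.map (MulAut.conj g).toMonoidHom with hG'
  have hZ' : center (SpecialLinearGroup (Fin 2) F) ≤ G' := by
    intro w hw
    refine ⟨w, hZ hw, ?_⟩
    simp only [MulEquiv.coe_toMonoidHom, MulAut.conj_apply]
    rw [mem_center_iff.1 hw g]; group
  have hu' : uu a ∈ G' := ⟨u, huG, by simpa using hga⟩
  have hl' : ll b ∈ G' := ⟨h * u * h⁻¹, G.mul_mem (G.mul_mem hhG huG) (G.inv_mem hhG), by
    simpa using hgb⟩
  have hπ : 2 ≤ Nat.card (addOf G') := by
    have : Nontrivial (addOf G') := ⟨⟨⟨a, hu'⟩, 0, fun h => ha (congrArg Subtype.val h)⟩⟩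
    exact Finite.one_lt_card
  rcases Nat.lt_or_ge (Nat.card (addOf G')) 3 with h3 | h3
  · right; left
    exact Tor_conj g (Tor_of_card (analysis_two p G' hZ' ha hb hu' hl' (by omega)))
  · have h0 := zero_mem_ptsOf p G' ha hb hu' hl'
    rcases main_analysisZ' p G' hZ' ha hb hu' hl' h3 with hh | ⟨-, h60, hdata⟩
    · right; right; right
      have hN : Normalized G' := by
        refine ⟨⟨b, hb, hl'⟩, fun w hw => ?_⟩
        by_cases w10 : w.1 1 0 = 0
        · left; exact w10
        · right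
          have hm : w.1 0 0 / w.1 1 0 ∈ ptsOf G' := ⟨w, hw, w10, by field_simp⟩
          have := hh _ hm _ h0
          rwa [sub_zero] at this
      obtain ⟨K, c, hc, -, hIn⟩ := hN.main
      exact ⟨K, _, InSub.conj g hIn⟩
    · right; right; left
      have hz := zc_pos F
      have hcG : Nat.card G = zc F * 60 := by
        rw [← h60, hG', card_map_conj]
      rcases Exc_conj g (Or.inr (Or.inr ⟨h60, hdata⟩)) with ⟨h1, -⟩ | ⟨h1, -⟩ | h1
      · rw [hcG] at h1; omega
      · rw [hcG] at h1; omega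
      · exact h1

end Cfsg.Agent.Lib.Helper7
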